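import Groth.Agent.LoccohB.BiGlobal
import Groth.Agent.PerfB.PCNoeth

/-!
# `RHom(M, K)` is pseudo-coherent for `M ∈ D^+_Coh` and `K` dualizing

* `isLE_RH_affine`: `RHom(P, ω~)` is bounded above for `P ∈ D^+_Coh(Spec A)`;
* `pc_RH`: `RHom(M, K)` is pseudo-coherent for `M ∈ D^+_Coh(X)`, `K` a dualizing complex on the locally
  Noetherian scheme `X`.
-/

set_option autoImplicit false

universe u

open CategoryTheory Category Limits AlgebraicGeometry Pretriangulated

attribute [local instance] HasDerivedCategory.standard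

namespace Groth.Agent.Dual.H359.DualPC

open DCoh Groth.Agent.LoccohB Groth.Agent.PerfC.DTens Groth.Agent.PerfC.RHomD
  Groth.Agent.PerfA.Restrict

section Ring

variable {A : Type u} [CommRing A]

/-- `RHom(K, ω)` is bounded above if `K` is bounded below and `ω` is dualizing. -/
theorem isLE_RHomCx {ω : Dual.D A} (hω : Dual.IsDualizing A ω) (K : DRing.Cx A)
    [DRing.HasRHomCx K] (c : ℤ) (hc : (DRing.toD K).IsGE c) :
    ∃ b : ℤ, ((DRing.RHomCx K).obj ω).IsLE b := by
  obtain ⟨I, a, b, hI, ⟨e⟩⟩ := BidualD.exists_model ω hω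
  have := hI.isKInjective
  have := hI.isStrictlyLE
  have hK : K.IsGE c := by
    have := hc
    rw [← DerivedCategory.isGE_Q_obj_iff]
    exact this
  have h1 : (DRing.homCx K I).IsLE (b - c) := HomCx.homCx_isLE K I b c (b - c) (by lia)
  refine ⟨b - c, ?_⟩
  have h2 : (DRing.toD (DRing.homCx K I)).IsLE (b - c) := by
    change (DerivedCategory.Q.obj (DRing.homCx K I)).IsLE (b - c)
    rw [DerivedCategory.isLE_Q_obj_iff]
    exact h1
  exact DerivedCategory.TStructure.t.isLE_of_iso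
    (RHomVal.rhomIso K I ≪≫ (DRing.RHomCx K).mapIso e) (b - c)

end Ring

/-- `RHom(P, ω~)` is bounded above for `P ∈ D^+_Coh(Spec A)`. -/
theorem isLE_RH_affine (A : Type u) [CommRing A] [IsNoetherianRing A]
    [PreservesFiniteLimits (tilde.functor (CommRingCat.of A))] (ω : Dual.D A)
    (hω : Dual.IsDualizing A ω) {P : D (Spec (CommRingCat.of A))} (hP : IsCohD P) (c : ℤ)
    (hc : P.IsGE c) :
    ∃ b : ℤ, ((RH P).obj ((tildeD (CommRingCat.of A)).obj ω)).IsLE b := by
  obtain ⟨K, ⟨e⟩⟩ := BiAffine.exists_model A (Groth.Agent.PerfA.QCohD.isQCohD_of_isCohD hP)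
  have hK := BiAffine.finite_of_iso A hP K e
  have := RHomVal.hasRHomCx K
  obtain ⟨i1⟩ := BiAffine.nonempty_RH_tilde A ω hω K hK e
  have hKc : (DRing.toD K).IsGE c := AdAffine.isGE_of_tilde (P := CommRingCat.of A) _ c
    (DerivedCategory.TStructure.t.isGE_of_iso e c)
  obtain ⟨b, hb⟩ := isLE_RHomCx hω K c hKc
  refine ⟨b, ?_⟩
  have h1 : ((tildeD (CommRingCat.of A)).obj ((DRing.RHomCx K).obj ω)).IsLE b :=
    Groth.Agent.PerfA.ExactD.isLE_map (tilde.functor (CommRingCat.of A)) _ b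
  exact DerivedCategory.TStructure.t.isLE_of_iso i1.symm b

/-- `RHom(M, K)` is pseudo-coherent for `M ∈ D^+_Coh(X)`, `K` dualizing. -/
theorem pc_RH {X : Scheme.{u}} [IsLocallyNoetherian X]
    [∀ (U : Scheme.{u}) (j : U ⟶ X) [IsOpenImmersion j],
      PreservesFiniteLimits (Scheme.Modules.restrictFunctor j)]
    [∀ (R : CommRingCat.{u}), PreservesFiniteLimits (tilde.functor R)]
    {K : DCoh.D X} (hK : Dual2.IsDualizingSch X K) {M : DCoh.D X} (hM : IsCohD M) (c : ℤ)
    (hc : M.IsGE c) (m : ℤ) : IsPseudoCoherentD m ((RH M).obj K) := by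
  refine Groth.Agent.PerfC.PcLocal.pc_of_cover _ fun x => ?_
  obtain ⟨A, _, j, _, y, hy⟩ := BiGlobal.exists_affine X x
  have := BiGlobal.isNoetherianRing_of_isOpenImmersion A j
  have hLN : IsLocallyNoetherian (Spec (CommRingCat.of A)) := isLocallyNoetherian_of_isOpenImmersion j
  obtain ⟨ω, hω, ⟨e⟩⟩ := hK A j
  obtain ⟨i⟩ := nonempty_rhRes j M K
  have hMj : IsCohD ((DCoh.restrictD j).obj M) := Groth.Agent.PerfA.QCohD.isCohD_restrictD j hM
  have hcj : ((DCoh.restrictD j).obj M).IsGE c := Groth.Agent.PerfA.ExactD.isGE_map _ _ _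
  obtain ⟨b, hb⟩ := isLE_RH_affine A ω hω hMj c hcj
  have hL : ((DCoh.restrictD j).obj ((RH M).obj K)).IsLE b :=
    DerivedCategory.TStructure.t.isLE_of_iso (i ≪≫ (RH _).mapIso e).symm b
  have hC : IsCohD ((DCoh.restrictD j).obj ((RH M).obj K)) :=
    Groth.Agent.PerfA.QCohD.isCohD_restrictD j (BiGlobal.isCohD_RH hK hM)
  exact ⟨_, j, inferInstance, y, hy, Groth.Agent.PerfB.PCNoeth.pc_of_isCoh (b - m + 1).toNat _ b m hL
    (by lia) (fun i _ => hC i)⟩

end Groth.Agent.Dual.H359.DualPC
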