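import Groth.Agent.Dual.H359.RHUniv
import Groth.Agent.Dual.H359.DualPC
import Groth.Agent.PerfC.RHomPC346
import Groth.Agent.S0910

/-!
# `a(M) = RHom(Lf^* RHom(M, K), a(K))` for `f` proper and `K` dualizing
-/

set_option autoImplicit false

universe u

open CategoryTheory Category Limits AlgebraicGeometry Pretriangulated

attribute [local instance] HasDerivedCategory.standard

namespace Groth.Agent.Dual.H359.ProperDual

open DCoh Groth.Agent.LoccohB Groth.Agent.PerfC.DTens Groth.Agent.PerfC.RHomD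
  Groth.Agent.Ega1.ADualUniv

/-- For `f` quasi-compact quasi-separated, `K` a dualizing complex on the locally Noetherian scheme `Y`,
`M ∈ D^+_Coh(Y)` and `L ∈ D^+_QCoh(X)` universal for `(f, K)`, the complex
`RHom(Lf^* RHom(M, K), L)` is universal for `(f, M)`. -/
theorem univ_dual {X Y : Scheme.{u}} [IsLocallyNoetherian Y] (f : X ⟶ Y) [QuasiCompact f]
    [QuasiSeparated f] [HasRpush f] [HasLpull f]
    [∀ (U : Scheme.{u}) (j : U ⟶ Y) [IsOpenImmersion j],
      PreservesFiniteLimits (Scheme.Modules.restrictFunctor j)]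
    [∀ (R : CommRingCat.{u}), PreservesFiniteLimits (tilde.functor R)]
    {K : D Y} (hK : Dual2.IsDualizingSch Y K) {M : D Y} (hM : IsCohD M) (c : ℤ) (hc : M.IsGE c)
    {L : D X} (h : Univ f K L) (c' : ℤ) (hL : L.IsGE c') :
    Univ f M ((RH ((Lpull f).obj ((RH M).obj K))).obj L) := by
  have hpc : ∀ m : ℤ, IsPseudoCoherentD m ((Lpull f).obj ((RH M).obj K)) := fun m =>
    Groth.Agent.S0910.result f m _ (DualPC.pc_RH hK hM c hc m)
  have hq : IsQCohD ((RH ((Lpull f).obj ((RH M).obj K))).obj L) :=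
    Groth.Agent.PerfC.RHomPC346.coh_rh_pc Groth.Agent.PerfC.RHomSerre.locSerre_qcoh trivial hpc c' hL
      h.qcoh
  obtain ⟨e⟩ := BiGlobal.nonempty_bidual hK hM
  exact (RHUniv.univ_RH f h (Groth.Agent.PerfA.QCohD.isQCohD_of_isCohD
    (BiGlobal.isCohD_RH hK hM)) hq).of_iso_right e

end Groth.Agent.Dual.H359.ProperDual
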