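import Groth.Agent.S1118
import Groth.Agent.Ega1.ADualUniv
import Groth.Agent.S1054
import Groth.Agent.PerfC.RHomD

/-!
# Internal `RHom` and the right adjoint of `Rf_*`

* `theta_nat_left`: naturality in `E` of the projection map `Rf_* E ⊗ᴸ P ⟶ Rf_* (E ⊗ᴸ Lf^* P)`;
* `univ_RH`: if `L` is universal for `(f, K)` (`f` qcqs, `P ∈ D_QCoh(Y)`) then `RHom(Lf^* P, L)` is universal
  for `(f, RHom(P, K))`, as soon as it lies in `D_QCoh`.
-/

set_option autoImplicit false

universe v₁ v₂ u₁ u₂ u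

open CategoryTheory Category Limits

namespace Groth.Agent.Dual.H359.RHUniv

section Abstract

open Groth.Agent.PerfC.ProjMap

variable {D : Type u₁} [Category.{v₁} D] {E : Type u₂} [Category.{v₂} E]
  {T : D ⥤ D ⥤ D} {T' : E ⥤ E ⥤ E} {L : D ⥤ E} {R : E ⥤ D} (adj : L ⊣ R)
  (M : T ⋙ (Functor.whiskeringRight _ _ _).obj L ⟶ L ⋙ T' ⋙ (Functor.whiskeringLeft _ _ _).obj L)

/-- Naturality of the projection map in the first variable. -/
@[reassoc]
lemma theta_nat_abs {A A' : E} (u : A' ⟶ A) (P : D) :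
    (T.map (R.map u)).app P ≫ (theta adj M A).app P =
      (theta adj M A').app P ≫ R.map ((T'.map u).app (L.obj P)) := by
  rw [theta_app, theta_app]
  have h1 := adj.unit.naturality ((T.map (R.map u)).app P)
  dsimp at h1
  have h2 : R.map ((T'.map (L.map (R.map u))).app (L.obj P)) ≫
      R.map ((T'.map (adj.counit.app A)).app (L.obj P)) =
      R.map ((T'.map (adj.counit.app A')).app (L.obj P)) ≫ R.map ((T'.map u).app (L.obj P)) := by
    rw [← R.map_comp, ← R.map_comp, ← NatTrans.comp_app, ← NatTrans.comp_app, ← T'.map_comp,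
      ← T'.map_comp]
    erw [adj.counit.naturality u]
    rfl
  rw [reassoc_of% h1, assoc, assoc, ← R.map_comp_assoc, Ma_nat₁, R.map_comp_assoc, h2]

end Abstract

open AlgebraicGeometry

attribute [local instance] HasDerivedCategory.standard

open DCoh Groth.Agent.PerfC.DTens Groth.Agent.PerfC.RHomD Groth.Agent.PerfC.LpullTens
  Groth.Agent.Ega1.ADualUniv

variable {X Y : Scheme.{u}} (f : X ⟶ Y) [HasRpush f] [HasLpull f]

/-- Naturality of the projection map in the first variable. -/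
@[reassoc]
lemma theta_nat_left {N N' : D X} (u : N' ⟶ N) (P : D Y) :
    ((LTX Y).map ((Rpush f).map u)).app P ≫ (theta f N).app P =
      (theta f N').app P ≫ (Rpush f).map (((LTX X).map u).app ((Lpull f).obj P)) :=
  theta_nat_abs (Groth.Agent.Dcoh.DerPull.lpullAdj f) (lpullTens f).hom u P

/-- `Hom(N, RHom(Lf^* P, L)) ⟶ Hom(Rf_* N, RHom(P, K))` induced by `τ : Rf_* L ⟶ K`. -/
noncomputable def rhTr {K : D Y} {L : D X} (τ : (Rpush f).obj L ⟶ K) (P : D Y) (N : D X)
    (g : N ⟶ (RH ((Lpull f).obj P)).obj L) : (Rpush f).obj N ⟶ (RH P).obj K :=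
  (rhAdj P).homEquiv _ _ ((theta f N).app P ≫
    (Rpush f).map (((rhAdj ((Lpull f).obj P)).homEquiv _ _).symm g) ≫ τ)

lemma rhTr_nat {K : D Y} {L : D X} (τ : (Rpush f).obj L ⟶ K) (P : D Y) {N N' : D X}
    (u : N' ⟶ N) (g : N ⟶ (RH ((Lpull f).obj P)).obj L) :
    rhTr f τ P N' (u ≫ g) = (Rpush f).map u ≫ rhTr f τ P N g := by
  unfold rhTr
  rw [← (rhAdj P).homEquiv_naturality_left, (rhAdj ((Lpull f).obj P)).homEquiv_naturality_left_symm]
  congr 1
  have h := theta_nat_left_assoc f u P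
    ((Rpush f).map (((rhAdj ((Lpull f).obj P)).homEquiv _ _).symm g) ≫ τ)
  rw [Functor.map_comp, assoc]
  exact h.symm

lemma rhTr_bijective [QuasiCompact f] [QuasiSeparated f] {K : D Y} {L : D X}
    {τ : (Rpush f).obj L ⟶ K} (h : IsUniv f K L τ) {P : D Y} (hP : IsQCohD P) (N : D X)
    (hN : IsQCohD N) : Function.Bijective (rhTr f τ P N) := by
  have hLP : IsQCohD ((Lpull f).obj P) := Groth.Agent.S1054.result f P hP
  have h1 : Function.Bijective
      (fun g : N ⟶ (RH ((Lpull f).obj P)).obj L =>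
        ((rhAdj ((Lpull f).obj P)).homEquiv N L).symm g) :=
    ((rhAdj ((Lpull f).obj P)).homEquiv N L).symm.bijective
  have h2 := h.bij (((LTX X).obj N).obj ((Lpull f).obj P))
    (Groth.Agent.PerfC.ProjAbs291.isQCohD_LTX hN hLP)
  have hθ := Groth.Agent.S1118.isIso_theta_app f N hN P hP
  have h3 : Function.Bijective
      (fun g : (Rpush f).obj (((LTX X).obj N).obj ((Lpull f).obj P)) ⟶ K =>
        (theta f N).app P ≫ g) :=
    ((asIso ((theta f N).app P)).symm.homFromEquiv (Z := K)).bijective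
  have h4 : Function.Bijective (fun g : ((LTX Y).obj ((Rpush f).obj N)).obj P ⟶ K =>
      (rhAdj P).homEquiv ((Rpush f).obj N) K g) :=
    ((rhAdj P).homEquiv ((Rpush f).obj N) K).bijective
  exact h4.comp (h3.comp (h2.comp h1))

/-- If `L` is universal for `(f, K)`, then `RHom(Lf^* P, L)` is universal for `(f, RHom(P, K))`. -/
theorem univ_RH [QuasiCompact f] [QuasiSeparated f] {K : D Y} {L : D X} (h : Univ f K L)
    {P : D Y} (hP : IsQCohD P) (hq : IsQCohD ((RH ((Lpull f).obj P)).obj L)) :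
    Univ f ((RH P).obj K) ((RH ((Lpull f).obj P)).obj L) := by
  obtain ⟨τ, h⟩ := h
  exact Univ.of_natural hq (fun N _ g => rhTr f τ P N g) (fun N hN => rhTr_bijective f h hP N hN)
    (fun N N' _ _ u g => rhTr_nat f τ P u g)

end Groth.Agent.Dual.H359.RHUniv
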